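/-
Four-groups of PSL(2, q), q odd: automorphisms of 2-power order centralising one when the Sylow
2-subgroups are abelian.
-/
import Cfsg.Agent.Linear.PSL2KleinFour
import Cfsg.Agent.Linear.SLNormal
import Cfsg.Agent.KnownB.AutPSL.Facts
import Cfsg.Agent.S0243

set_option autoImplicit false

namespace Cfsg.Agent.FGS3.JanRee

open Matrix Cfsg.Agent.KnownB Cfsg.Agent.KnownB.AutPSL

variable {F : Type*} [Field F] [Fintype F]

local notation "SL" => Matrix.SpecialLinearGroup (Fin 2) F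
local notation "M2" => Matrix (Fin 2) (Fin 2) F
local notation "PSL" => Matrix.ProjectiveSpecialLinearGroup (Fin 2) F

theorem two_ne_zero' (hodd : Odd (Fintype.card F)) : (2 : F) ≠ 0 := by
  intro h
  have : CharP F 2 := CharTwo.of_one_ne_zero_of_two_eq_zero one_ne_zero h
  have := FiniteField.even_card_of_char_two (F := F) (ringChar.eq F 2)
  obtain ⟨k, hk⟩ := hodd
  omega

/-- The unit for a matrix of determinant one. -/
def slGL (s : SL) : GL (Fin 2) F := Matrix.SpecialLinearGroup.toGL s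

theorem slGL_val (s : SL) : (slGL s).val = s.val := rfl

/-- A quaternion pair in standard position. -/
structure Pair (F : Type*) [Field F] where
  h2 : (2 : F) ≠ 0
  u : F
  v : F
  huv : u ^ 2 + v ^ 2 = -1

theorem exists_pair (hodd : Odd (Fintype.card F)) : Nonempty (Pair F) := by
  obtain ⟨u, v, huv⟩ := FiniteField.exists_root_sum_quadratic
    (f := (Polynomial.X : Polynomial F) ^ 2) (g := Polynomial.X ^ 2 - Polynomial.C (-1 : F))
    (Polynomial.degree_X_pow 2) (Polynomial.degree_X_pow_sub_C two_pos _) (Nat.odd_iff.1 hodd)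
  simp at huv
  exact ⟨⟨two_ne_zero' hodd, u, v, by linear_combination huv⟩⟩

theorem J_sq : (Linear.quatJ : SL).1 * (Linear.quatJ : SL).1 = -1 := Linear.quatJ_sq

theorem mk_eq_iff {g h : SL} : pslMk 2 F g = pslMk 2 F h ↔ g = h ∨ g = -h := Linear.toPSL_eq_iff

namespace Pair

variable (D : Pair F)
include D

/-- The second element. -/
def H : SL := ⟨!![D.u, D.v; D.v, -D.u], by rw [Matrix.det_fin_two_of]; linear_combination -D.huv⟩

theorem H_sq : D.H.1 * D.H.1 = -1 := Linear.sq_neg_one_of_trace _ (by simp [H])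

theorem anti : D.H.1 * (Linear.quatJ : SL).1 = -((Linear.quatJ : SL).1 * D.H.1) := by
  change !![D.u, D.v; D.v, -D.u] * !![(0 : F), -1; 1, 0] =
    -(!![0, -1; 1, 0] * !![D.u, D.v; D.v, -D.u])
  ext i j
  fin_cases i <;> fin_cases j <;> simp [Matrix.mul_apply, Fin.sum_univ_two]

/-- First involution. -/
def a : PSL := pslMk 2 F Linear.quatJ

/-- Second involution. -/
def b : PSL := pslMk 2 F D.H

theorem neg_one_ne : (-1 : M2) ≠ 1 := fun h => by
  have := congrFun (congrFun h 0) 0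
  simp at this
  exact D.h2 (by linear_combination -this)

theorem sq_one {g : SL} (h : g.1 * g.1 = -1) : pslMk 2 F g * pslMk 2 F g = 1 ∧ pslMk 2 F g ≠ 1 :=
  ((Linear.toPSL_involution D.h2).2 h).symm

theorem a_sq : (a : PSL) * a = 1 := (D.sq_one J_sq).1
theorem a_ne : (a : PSL) ≠ 1 := (D.sq_one J_sq).2
theorem b_sq : D.b * D.b = 1 := (D.sq_one D.H_sq).1
theorem b_ne : D.b ≠ 1 := (D.sq_one D.H_sq).2

theorem comm : (a : PSL) * D.b = D.b * a := by
  rw [a, b, ← map_mul, ← map_mul, mk_eq_iff]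
  exact Or.inr (Subtype.ext (by
    show (Linear.quatJ : SL).1 * D.H.1 = -(D.H.1 * (Linear.quatJ : SL).1)
    rw [D.anti, neg_neg]))

theorem ab_ne : (a : PSL) ≠ D.b := by
  intro h
  rw [a, b, mk_eq_iff] at h
  have e : (Linear.quatJ : SL).1 * D.H.1 = D.H.1 * (Linear.quatJ : SL).1 := by
    rcases h with h | h <;> rw [h] <;> simp
  rw [D.anti] at e
  have e2 : (Linear.quatJ : SL).1 * D.H.1 * D.H.1 = -((Linear.quatJ : SL).1 * D.H.1 * D.H.1) := by
    conv_lhs => rw [e, neg_mul]
  rw [mul_assoc, D.H_sq, mul_neg, mul_one, neg_neg] at e2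
  have := congrFun (congrFun e2 1) 0
  simp [Linear.quatJ] at this
  exact D.h2 (by linear_combination -this)

/-- The quaternion `-1 + i + j + ij`. -/
def U : M2 := -1 + (Linear.quatJ : SL).1 + D.H.1 + (Linear.quatJ : SL).1 * D.H.1

theorem U_b : (Linear.quatJ : SL).1 * D.U = D.U * D.H.1 := by
  simp only [U, mul_add, add_mul, mul_neg, neg_mul, mul_one, one_mul, ← mul_assoc, J_sq]
  simp only [mul_assoc, D.H_sq, mul_neg, mul_one]
  abel

theorem U_a : (Linear.quatJ : SL).1 * D.H.1 * D.U = D.U * (Linear.quatJ : SL).1 := by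
  have e1 : (Linear.quatJ : SL).1 * D.H.1 * (Linear.quatJ : SL).1 = D.H.1 := by
    rw [mul_assoc, D.anti, mul_neg, ← mul_assoc, J_sq, neg_mul, one_mul, neg_neg]
  simp only [U, mul_add, add_mul, mul_neg, neg_mul, mul_one, one_mul, ← mul_assoc, J_sq, e1]
  simp only [mul_assoc, D.H_sq, mul_neg, mul_one]
  rw [D.anti]
  abel

theorem U_det : D.U.det = 4 := by
  simp [U, H, Linear.quatJ, Matrix.det_fin_two, Matrix.mul_apply, Fin.sum_univ_two, Matrix.one_apply]
  linear_combination -(2 : F) * D.huv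

theorem two_sq : (2 : F) * 2 ≠ 0 := mul_ne_zero D.h2 D.h2

/-- The element of order three normalising the four-group. -/
noncomputable def T : SL := ⟨(2 : F)⁻¹ • D.U, by
  rw [Matrix.det_smul, D.U_det, Fintype.card_fin]
  have := D.h2
  field_simp
  norm_num⟩

/-- Its image. -/
noncomputable def h : PSL := pslMk 2 F D.T

theorem h_b : (a : PSL) * D.h = D.h * D.b := by
  rw [a, h, b, ← map_mul, ← map_mul]
  exact congrArg _ (Subtype.ext (by
    show (Linear.quatJ : SL).1 * ((2 : F)⁻¹ • D.U) = (2 : F)⁻¹ • D.U * D.H.1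
    rw [Matrix.mul_smul, Matrix.smul_mul, D.U_b]))

theorem h_a : (a : PSL) * D.b * D.h = D.h * a := by
  rw [a, h, b, ← map_mul, ← map_mul, ← map_mul]
  exact congrArg _ (Subtype.ext (by
    show (Linear.quatJ : SL).1 * D.H.1 * ((2 : F)⁻¹ • D.U) = (2 : F)⁻¹ • D.U * (Linear.quatJ : SL).1
    rw [Matrix.mul_smul, Matrix.smul_mul, D.U_a]))

theorem scalar_of_commute {M : M2} (hJ : M * (Linear.quatJ : SL).1 = (Linear.quatJ : SL).1 * M)
    (hH : M * D.H.1 = D.H.1 * M) : M = M 0 0 • (1 : M2) := by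
  have e := Linear.eq_of_commute_quatJ hJ
  have h01 : M 0 1 = -M 1 0 := congrFun (congrFun e 0) 1
  have h11 : M 1 1 = M 0 0 := congrFun (congrFun e 1) 1
  have e00 := congrFun (congrFun hH 0) 0
  have e01 := congrFun (congrFun hH 0) 1
  simp [H, Matrix.mul_apply, Fin.sum_univ_two] at e00 e01
  rw [h01] at e00 e01
  rw [h11] at e01
  have hu : M 1 0 * D.u = 0 := by
    have : (2 : F) * (M 1 0 * D.u) = 0 := by linear_combination e01
    exact (mul_eq_zero.1 this).resolve_left D.h2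
  have hv : M 1 0 * D.v = 0 := by
    have : (2 : F) * (M 1 0 * D.v) = 0 := by linear_combination -e00
    exact (mul_eq_zero.1 this).resolve_left D.h2
  have h10 : M 1 0 = 0 := by linear_combination -D.u * hu - D.v * hv + M 1 0 * D.huv
  ext i j
  fin_cases i <;> fin_cases j <;> simp [h01, h11, h10]

/-- An inner-diagonal automorphism fixing the four-group is inner by an element of it. -/
theorem A_fix (g : GL (Fin 2) F) (ha : A 2 F g a = a) (hb : A 2 F g D.b = D.b) :
    ∃ w : PSL, (w = 1 ∨ w = a ∨ w = D.b ∨ w = a * D.b) ∧ A 2 F g = MulAut.conj w := by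
  have key : ∀ s : SL, A 2 F g (pslMk 2 F s) = pslMk 2 F s → g.val * s.val = s.val * g.val ∨
      g.val * s.val = -(s.val * g.val) := by
    intro s hs
    rw [A_mk, mk_eq_iff] at hs
    rcases hs with e | e
    · left
      have e' := congrArg Subtype.val e
      rw [conjSL_val] at e'
      conv_rhs => rw [← e']
      simp [mul_assoc]
    · right
      have e' : _ = -s.val := congrArg Subtype.val e
      rw [conjSL_val] at e'
      have e'' := congrArg (fun X : M2 => X * g.val) e'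
      simp [mul_assoc] at e''
      exact e''
  have hJJ := (J_sq : (Linear.quatJ : SL).1 * _ = -1)
  have finish : ∀ s : SL, pslMk 2 F s * pslMk 2 F s = 1 →
      g.val * s.val * (Linear.quatJ : SL).1 = (Linear.quatJ : SL).1 * (g.val * s.val) →
      g.val * s.val * D.H.1 = D.H.1 * (g.val * s.val) → A 2 F g = MulAut.conj (pslMk 2 F s) := by
    intro s hs h1 h2
    have hsc := D.scalar_of_commute h1 h2
    have hc : g * slGL s ∈ Subgroup.center (GL (Fin 2) F) := by
      rw [Subgroup.mem_center_iff]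
      intro x
      apply Units.ext
      show x.val * (g.val * s.val) = g.val * s.val * x.val
      rw [hsc]
      simp
    have hone := (A_eq_one_iff le_rfl _).2 hc
    rw [map_mul, slGL, ← conj_eq, mul_eq_one_iff_eq_inv] at hone
    rw [hone, ← map_inv, inv_eq_of_mul_eq_one_right hs]
  rcases key _ ha with hJ | hJ <;> rcases key _ hb with hH | hH
  · refine ⟨1, Or.inl rfl, ?_⟩
    rw [← map_one (pslMk 2 F)]
    refine finish 1 (by simp) ?_ ?_
    · simpa using hJ
    · simpa using hH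
  · refine ⟨a, Or.inr (Or.inl rfl), finish _ D.a_sq ?_ ?_⟩
    · rw [mul_assoc (g.val), ← mul_assoc (Linear.quatJ : SL).1, ← hJ, mul_assoc]
    · rw [mul_assoc (g.val), ← mul_assoc D.H.1, ← neg_neg (D.H.1 * g.val), ← hH, neg_mul, mul_assoc, D.anti,
        mul_neg, neg_neg]
  · refine ⟨D.b, Or.inr (Or.inr (Or.inl rfl)), finish _ D.b_sq ?_ ?_⟩
    · rw [mul_assoc (g.val), ← mul_assoc (Linear.quatJ : SL).1, ← neg_neg ((Linear.quatJ : SL).1 * g.val), ← hJ,
        neg_mul, mul_assoc, D.anti, mul_neg]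
    · rw [mul_assoc (g.val), ← mul_assoc D.H.1, ← hH, mul_assoc]
  · refine ⟨a * D.b, Or.inr (Or.inr (Or.inr rfl)), ?_⟩
    rw [a, b, ← map_mul]
    refine finish _ ?_ ?_ ?_
    · rw [map_mul]
      calc a * D.b * (a * D.b) = a * (D.b * a) * D.b := by group
        _ = 1 := by rw [← D.comm, ← mul_assoc, D.a_sq, one_mul, D.b_sq]
    · show g.val * ((Linear.quatJ : SL).1 * D.H.1) * (Linear.quatJ : SL).1 =
        (Linear.quatJ : SL).1 * (g.val * ((Linear.quatJ : SL).1 * D.H.1))
      rw [← mul_assoc (Linear.quatJ : SL).1 g.val, ← neg_neg ((Linear.quatJ : SL).1 * g.val), ← hJ]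
      simp only [mul_assoc, D.anti, mul_neg, neg_mul]
    · show g.val * ((Linear.quatJ : SL).1 * D.H.1) * D.H.1 =
        D.H.1 * (g.val * ((Linear.quatJ : SL).1 * D.H.1))
      rw [← mul_assoc D.H.1 g.val, ← neg_neg (D.H.1 * g.val), ← hH]
      rw [neg_mul, mul_assoc g.val D.H.1, ← mul_assoc D.H.1, D.anti]
      simp only [mul_assoc, mul_neg, neg_mul, neg_neg]

end Pair

theorem card_psl_two (hodd : Odd (Fintype.card F)) :
    2 * Nat.card PSL = Fintype.card F * (Fintype.card F ^ 2 - 1) := by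
  set q := Fintype.card F with hq
  have h := S0243.result hq.symm 2 le_rfl
  obtain ⟨r, hr⟩ := hodd
  have h1 : 1 < q := hq ▸ Fintype.one_lt_card
  have hg : Nat.gcd 2 (q - 1) = 2 := Nat.gcd_eq_left (by omega)
  rw [hg, Fin.prod_univ_two] at h
  simp only [Fin.val_zero, Fin.val_one, pow_zero, pow_one] at h
  refine Nat.eq_of_mul_eq_mul_left (show 0 < q - 1 by omega) ?_
  rw [mul_left_comm, h, show q ^ 2 - q = q * (q - 1) by rw [pow_two, Nat.mul_sub, mul_one]]
  ring

/-- The elements needed, with abelian Sylow 2-subgroups. -/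
theorem exists_data (hodd : Odd (Fintype.card F)) (h3 : 3 < Fintype.card F)
    (hab : ∀ P : Sylow 2 PSL, IsMulCommutative ↥(P : Subgroup PSL)) :
    IsSimpleGroup PSL ∧ ∃ a b h : PSL, a * a = 1 ∧ b * b = 1 ∧ a * b = b * a ∧ a ≠ 1 ∧ b ≠ 1 ∧ a ≠ b ∧
      h * b * h⁻¹ = a ∧ h * a * h⁻¹ = a * b ∧
      ∀ β : MulAut PSL, (∃ k : ℕ, β ^ 2 ^ k = 1) → β a = a → β b = b →
        ∃ w : PSL, (w = 1 ∨ w = a ∨ w = b ∨ w = a * b) ∧ β = MulAut.conj w := by
  classical
  haveI hs : IsSimpleGroup PSL := Linear.psl_simple_finite 2 le_rfl (by omega)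
  obtain ⟨D⟩ := exists_pair hodd
  haveI : Fact (Nat.Prime 2) := ⟨Nat.prime_two⟩
  refine ⟨hs, Pair.a, D.b, D.h, D.a_sq, D.b_sq, D.comm, D.a_ne, D.b_ne, D.ab_ne,
    by rw [← D.h_b, mul_inv_cancel_right], by rw [← D.h_a, mul_inv_cancel_right], ?_⟩
  have hinj : Function.Injective (MulAut.conj : PSL →* MulAut PSL) := by
    rw [← MonoidHom.ker_eq_bot_iff]
    refine (MulAut.conj : PSL →* MulAut PSL).normal_ker.eq_bot_or_eq_top.resolve_right fun h => ?_
    have h' := DFunLike.congr_fun (MonoidHom.mem_ker.1 (h ▸ Subgroup.mem_top D.h :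
      D.h ∈ (MulAut.conj : PSL →* MulAut PSL).ker)) D.b
    rw [MulAut.conj_apply, MulAut.one_apply, ← D.h_b, mul_inv_cancel_right] at h'
    exact D.ab_ne h'
  let V := Linear.fourGroup Pair.a D.b D.a_sq D.b_sq D.comm
  have hV4 : Nat.card V = 4 := Linear.card_fourGroup D.a_sq D.b_sq D.comm D.a_ne D.b_ne D.ab_ne
  obtain ⟨W, hW⟩ := (IsPGroup.of_card (n := 2) (by rw [hV4]; rfl) : IsPGroup 2 V).exists_le_sylow
  haveI := hab W
  have hWV : (W : Subgroup PSL) ≤ V := by
    intro x hx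
    have hfix : ∀ y ∈ V, MulAut.conj x y = y := fun y hy => by
      have := congrArg Subtype.val (mul_comm' (⟨x, hx⟩ : (W : Subgroup PSL)) ⟨y, hW hy⟩)
      simp only [Subgroup.coe_mul] at this
      rw [MulAut.conj_apply, this, mul_inv_cancel_right]
    obtain ⟨s, rfl⟩ := pslMk_surjective x
    obtain ⟨w, hw, e⟩ := D.A_fix (Matrix.SpecialLinearGroup.toGL s)
      (by rw [← conj_eq]; exact hfix _ (Or.inr (Or.inl rfl)))
      (by rw [← conj_eq]; exact hfix _ (Or.inr (Or.inr (Or.inl rfl))))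
    rw [← conj_eq] at e
    rw [hinj e]
    exact hw
  have hW4 : Nat.card (W : Subgroup PSL) = 4 := by rw [le_antisymm hWV hW, hV4]
  have h8 : ¬ 8 ∣ Nat.card PSL := by
    intro h8
    have := W.card_eq_multiplicity
    rw [hW4] at this
    have h3 : 3 ≤ (Nat.card PSL).factorization 2 :=
      (Nat.prime_two.pow_dvd_iff_le_factorization Nat.card_pos.ne').1 (by norm_num; simpa [Nat.card_eq_fintype_card] using h8)
    have : 2 ^ 3 ≤ 2 ^ (Nat.card PSL).factorization 2 := Nat.pow_le_pow_right two_pos h3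
    omega
  intro β ⟨k, hk⟩ hβa hβb
  obtain ⟨p, hp⟩ := CharP.exists F
  obtain ⟨f, hpp, hcard⟩ := FiniteField.card F p
  haveI := Fact.mk hpp
  have hfodd : Odd (f : ℕ) := by
    rw [← Nat.not_even_iff_odd]
    rintro ⟨m, hm⟩
    apply h8
    have hq2 := card_psl_two (F := F) hodd
    rw [hcard, hm, ← two_mul, mul_comm 2 m, pow_mul] at hq2
    set r := p ^ m
    have hr : Odd r := by
      rw [hcard, hm, ← two_mul, mul_comm 2 m, pow_mul] at hodd
      exact Nat.Odd.of_mul_left (by rwa [pow_two] at hodd)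
    have h16 : 16 ∣ (r ^ 2) ^ 2 - 1 := by
      refine (Nat.modEq_iff_dvd' (Nat.one_le_pow _ _ (pow_pos hr.pos _))).1 ?_
      show 1 % 16 = (r ^ 2) ^ 2 % 16
      rw [← pow_mul, Nat.pow_mod]
      have h2 := Nat.odd_iff.1 hr
      have h16 := Nat.mod_lt r (show 16 > 0 by norm_num)
      have h22 : r % 16 % 2 = 1 := by omega
      interval_cases (r % 16) <;> simp_all
    have : 16 ∣ 2 * Nat.card PSL := hq2 ▸ dvd_mul_of_dvd_right h16 _
    omega
  obtain ⟨π, hsurj, hker, -⟩ := exists_proj2 (F := F)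
  obtain ⟨e⟩ := exists_ringAut_equiv (F := F) (p := p) (f := f) (by rw [Nat.card_eq_fintype_card, hcard]) f.pos
  have hβ : β ∈ π.ker := by
    rw [MonoidHom.mem_ker, ← orderOf_eq_one_iff]
    have h1 : orderOf (π β) ∣ 2 ^ k := orderOf_dvd_of_pow_eq_one (by rw [← map_pow, hk, map_one])
    have h2 : orderOf (π β) ∣ (f : ℕ) := by
      have : Nat.card (F ≃+* F) = f := by
        rw [Nat.card_congr e.toEquiv, Nat.card_congr Multiplicative.toAdd, Nat.card_zmod]
      rw [← this]
      exact orderOf_dvd_natCard _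
    exact Nat.eq_one_of_dvd_coprimes (Nat.Coprime.pow_left k (Nat.coprime_two_left.2 hfodd)) h1 h2
  rw [hker] at hβ
  obtain ⟨g, rfl⟩ := hβ
  exact D.A_fix g hβa hβb

end Cfsg.Agent.FGS3.JanRee
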