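/-
Simple groups with abelian Sylow 2-subgroups and an involution centraliser 2 × E, E having a normal PSL(2, q):
no perfect central extension by a 2-group, and 2-automorphisms fixing a Sylow 2-subgroup are inner.
-/
import Cfsg.Agent.FGS3.JanRee.Psl
import Cfsg.Prelude.Def_TwoFusion
import Mathlib.GroupTheory.Transfer
import Mathlib.GroupTheory.PGroup

set_option autoImplicit false

namespace Cfsg.Agent.FGS3.JanRee

variable {G : Type*} [Group G] [Finite G]

/-- The configuration. -/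
structure Setup (G : Type*) [Group G] (L : Type*) [Group L] where
  t : G
  E : Subgroup G
  j : L →* G
  a : L
  b : L
  h : L
  j_inj : Function.Injective j
  j_E : ∀ x, j x ∈ E
  j_normal : ∀ e ∈ E, ∀ x, ∃ y, e * j x * e⁻¹ = j y
  j_cent : ∀ e ∈ E, (∀ x, e * j x = j x * e) → e = 1
  aa : a * a = 1
  bb : b * b = 1
  ab : a * b = b * a
  a1 : a ≠ 1
  b1 : b ≠ 1
  anb : a ≠ b
  hb : h * b * h⁻¹ = a
  ha : h * a * h⁻¹ = a * b
  aut : ∀ β : MulAut L, (∃ k : ℕ, β ^ 2 ^ k = 1) → β a = a → β b = b →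
        ∃ w : L, (w = 1 ∨ w = a ∨ w = b ∨ w = a * b) ∧ β = MulAut.conj w
  tt : t * t = 1
  t1 : t ≠ 1
  dp : Cfsg.IsInternalDirectProduct (Subgroup.zpowers t) E (Subgroup.centralizer ({t} : Set G))

namespace Setup

variable {L : Type*} [Group L] (D : Setup G L)
include D

theorem E_comm {e : G} (he : e ∈ D.E) : D.t * e = e * D.t :=
  D.dp.2.2.1 _ (Subgroup.mem_zpowers _) _ he

theorem t_notE : D.t ∉ D.E := fun h =>
  D.t1 (Subgroup.mem_bot.1 (D.dp.2.2.2.1 ▸ Subgroup.mem_inf.2 ⟨Subgroup.mem_zpowers _, h⟩))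

theorem t_inv : D.t⁻¹ = D.t := inv_eq_of_mul_eq_one_right D.tt

omit [Finite G] in
theorem mem_C {x : G} : x ∈ Subgroup.centralizer ({D.t} : Set G) ↔ D.t * x = x * D.t := by
  rw [Subgroup.mem_centralizer_singleton_iff]
  exact eq_comm

/-- Elements of the centraliser. -/
theorem split {x : G} (hx : D.t * x = x * D.t) : x ∈ D.E ∨ D.t * x ∈ D.E := by
  have hmem : x ∈ Subgroup.zpowers D.t ⊔ D.E := by rw [D.dp.2.2.2.2, mem_C]; exact hx
  let K : Subgroup G :=
    { carrier := {y | D.t * y = y * D.t ∧ (y ∈ D.E ∨ D.t * y ∈ D.E)}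
      one_mem' := ⟨by simp, Or.inl (one_mem _)⟩
      mul_mem' := by
        rintro x y ⟨cx, hx⟩ ⟨cy, hy⟩
        refine ⟨by rw [← mul_assoc, cx, mul_assoc, cy, ← mul_assoc], ?_⟩
        rcases hx with hx | hx <;> rcases hy with hy | hy
        · exact Or.inl (mul_mem hx hy)
        · exact Or.inr (by have := mul_mem hx hy; rwa [← mul_assoc, ← cx, mul_assoc] at this)
        · exact Or.inr (by have := mul_mem hx hy; rwa [mul_assoc] at this)
        · refine Or.inl ?_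
          have := mul_mem hx hy
          rwa [cx, mul_assoc, ← mul_assoc D.t, D.tt, one_mul] at this
      inv_mem' := by
        rintro x ⟨cx, hx⟩
        have cx' : D.t * x⁻¹ = x⁻¹ * D.t := (Commute.inv_right (cx : Commute D.t x) : _)
        refine ⟨cx', hx.imp inv_mem fun h => ?_⟩
        have := inv_mem h
        rwa [mul_inv_rev, D.t_inv, ← cx'] at this }
  refine ((sup_le (Subgroup.zpowers_le.2 (show D.t ∈ K from ⟨rfl, Or.inr (by rw [D.tt]; exact one_mem _)⟩))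
    (fun e he => (⟨D.E_comm he, Or.inl he⟩ : _ ∧ _)) : Subgroup.zpowers D.t ⊔ D.E ≤ K) hmem).2

/-- The elementary abelian group of order eight. -/
def T8 : Set G := {x | ∃ w : L, (w = 1 ∨ w = D.a ∨ w = D.b ∨ w = D.a * D.b) ∧ (x = D.j w ∨ x = D.t * D.j w)}

theorem w_sq {w : L} (hw : w = 1 ∨ w = D.a ∨ w = D.b ∨ w = D.a * D.b) : w * w = 1 := by
  rcases hw with rfl | rfl | rfl | rfl
  · simp
  · exact D.aa
  · exact D.bb
  · calc D.a * D.b * (D.a * D.b) = D.a * (D.b * D.a) * D.b := by group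
      _ = 1 := by rw [← D.ab, ← mul_assoc, D.aa, one_mul, D.bb]

theorem h_fix {w : L} (hw : w = 1 ∨ w = D.a ∨ w = D.b ∨ w = D.a * D.b) (hc : D.h * w * D.h⁻¹ = w) :
    w = 1 := by
  rcases hw with rfl | rfl | rfl | rfl
  · rfl
  · exact absurd (D.ha.symm.trans hc) fun e => D.b1 (by simpa using e)
  · exact absurd (D.hb.symm.trans hc) D.anb
  · rw [show D.h * (D.a * D.b) * D.h⁻¹ = (D.h * D.a * D.h⁻¹) * (D.h * D.b * D.h⁻¹) by group, D.ha, D.hb,
      mul_eq_left] at hc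
    exact absurd hc D.a1

theorem T8_sq {x : G} (hx : x ∈ D.T8) : x * x = 1 := by
  obtain ⟨w, hw, rfl | rfl⟩ := hx
  · rw [← map_mul, D.w_sq hw, map_one]
  · rw [mul_assoc, ← mul_assoc (D.j w), ← D.E_comm (D.j_E w), mul_assoc D.t, ← map_mul, D.w_sq hw, map_one,
      mul_one, D.tt]

/-- A 2-element of E fixing the four-group lies in it. -/
theorem E_two {e : G} (he : e ∈ D.E) (h2 : ∃ k : ℕ, e ^ 2 ^ k = 1) (ha : e * D.j D.a = D.j D.a * e)
    (hb : e * D.j D.b = D.j D.b * e) : ∃ w, (w = 1 ∨ w = D.a ∨ w = D.b ∨ w = D.a * D.b) ∧ e = D.j w := by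
  choose β hβ using D.j_normal e he
  choose β' hβ' using D.j_normal e⁻¹ (inv_mem he)
  let B : MulAut L :=
    { toFun := β
      invFun := β'
      left_inv := fun x => D.j_inj (by rw [← hβ', ← hβ]; group)
      right_inv := fun x => D.j_inj (by rw [← hβ, ← hβ']; group)
      map_mul' := fun x y => D.j_inj (by rw [← hβ, map_mul, map_mul, ← hβ, ← hβ]; group) }
  have hB : ∀ x, D.j (B x) = e * D.j x * e⁻¹ := fun x => (hβ x).symm
  have hpow : ∀ (n : ℕ) x, D.j ((B ^ n) x) = e ^ n * D.j x * (e ^ n)⁻¹ := by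
    intro n
    induction n with
    | zero => intro x; simp
    | succ n ih => intro x; rw [pow_succ', MulAut.mul_apply, hB, ih, pow_succ']; group
  obtain ⟨k, hk⟩ := h2
  obtain ⟨w, hw, hBw⟩ := D.aut B ⟨k, MulEquiv.ext fun x => D.j_inj (by rw [hpow, hk]; simp)⟩
    (D.j_inj (by rw [hB, ha, mul_inv_cancel_right])) (D.j_inj (by rw [hB, hb, mul_inv_cancel_right]))
  refine ⟨w, hw, ?_⟩
  have h1 : (D.j w)⁻¹ * e = 1 := D.j_cent _ (mul_mem (inv_mem (D.j_E w)) he) fun x => by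
    have := hB x
    rw [hBw, MulAut.conj_apply, map_mul, map_mul, map_inv] at this
    calc (D.j w)⁻¹ * e * D.j x = (D.j w)⁻¹ * (e * D.j x * e⁻¹) * e := by group
      _ = _ := by rw [← this]; group
  exact (inv_mul_eq_one.1 h1).symm

theorem exists_sylow (hab : ∀ S : Sylow 2 G, IsMulCommutative ↥(S : Subgroup G)) :
    ∃ S₀ : Sylow 2 G, ∀ x, x ∈ (S₀ : Subgroup G) ↔ x ∈ D.T8 := by
  haveI : Fact (Nat.Prime 2) := ⟨Nat.prime_two⟩
  have hmul : ∀ {v w : L}, (v = 1 ∨ v = D.a ∨ v = D.b ∨ v = D.a * D.b) →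
      (w = 1 ∨ w = D.a ∨ w = D.b ∨ w = D.a * D.b) →
      (v * w = 1 ∨ v * w = D.a ∨ v * w = D.b ∨ v * w = D.a * D.b) := fun {v w} hv hw => by
    have h1 := (Linear.fourGroup D.a D.b D.aa D.bb D.ab).mul_mem (x := v) (y := w) hv hw
    exact h1
  have ht : ∀ w, D.j w * D.t = D.t * D.j w := fun w => (D.E_comm (D.j_E w)).symm
  let P : Subgroup G :=
    { carrier := D.T8
      one_mem' := ⟨1, Or.inl rfl, Or.inl (map_one _).symm⟩
      mul_mem' := by
        rintro _ _ ⟨v, hv, rfl | rfl⟩ ⟨w, hw, rfl | rfl⟩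
        · exact ⟨_, hmul hv hw, Or.inl (map_mul _ _ _).symm⟩
        · exact ⟨_, hmul hv hw, Or.inr (by rw [map_mul, ← mul_assoc, ht, mul_assoc])⟩
        · exact ⟨_, hmul hv hw, Or.inr (by rw [map_mul, mul_assoc])⟩
        · exact ⟨_, hmul hv hw, Or.inl (by rw [map_mul, mul_assoc, ← mul_assoc (D.j v), ht, mul_assoc D.t,
            ← mul_assoc D.t, D.tt, one_mul])⟩
      inv_mem' := fun {x} hx => by rwa [inv_eq_of_mul_eq_one_right (D.T8_sq hx)] }
  have hP : IsPGroup 2 P := fun x => ⟨1, Subtype.ext (by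
    rw [pow_one, Subgroup.coe_pow, pow_two]; exact D.T8_sq x.2)⟩
  obtain ⟨S₀, hS⟩ := hP.exists_le_sylow
  haveI := hab S₀
  refine ⟨S₀, fun x => ⟨fun hx => ?_, fun hx => hS hx⟩⟩
  have hc : ∀ y ∈ D.T8, x * y = y * x := fun y hy =>
    congrArg Subtype.val (mul_comm' (⟨x, hx⟩ : (S₀ : Subgroup G)) ⟨y, hS hy⟩)
  have htT : D.t ∈ D.T8 := ⟨1, Or.inl rfl, Or.inr (by simp)⟩
  have htx := (hc _ htT).symm
  have h2 : ∀ y ∈ (S₀ : Subgroup G), ∃ k : ℕ, y ^ 2 ^ k = 1 := fun y hy => by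
    obtain ⟨k, hk⟩ := S₀.isPGroup' ⟨y, hy⟩
    exact ⟨k, congrArg Subtype.val hk⟩
  rcases D.split htx with he | he
  · obtain ⟨w, hw, rfl⟩ := D.E_two he (h2 _ hx) (hc _ ⟨_, Or.inr (Or.inl rfl), Or.inl rfl⟩)
      (hc _ ⟨_, Or.inr (Or.inr (Or.inl rfl)), Or.inl rfl⟩)
    exact ⟨w, hw, Or.inl rfl⟩
  · obtain ⟨w, hw, e⟩ := D.E_two he (h2 _ (mul_mem (hS htT) hx))
      (by rw [mul_assoc, hc _ ⟨_, Or.inr (Or.inl rfl), Or.inl rfl⟩, ← mul_assoc, ← ht, mul_assoc])
      (by rw [mul_assoc, hc _ ⟨_, Or.inr (Or.inr (Or.inl rfl)), Or.inl rfl⟩, ← mul_assoc, ← ht, mul_assoc])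
    exact ⟨w, hw, Or.inr (by rw [← e, ← mul_assoc, D.tt, one_mul])⟩

end Setup

/-- An abelian Sylow subgroup of a simple nonabelian group has no element fixed by its normaliser. -/
theorem fixed_trivial [IsSimpleGroup G] (hG : ¬ IsMulCommutative G) (S : Sylow 2 G)
    (hS : IsMulCommutative ↥(S : Subgroup G)) {s : G} (hs : s ∈ (S : Subgroup G))
    (hfix : ∀ n ∈ Subgroup.normalizer ((S : Subgroup G) : Set G), n * s = s * n) : s = 1 := by
  haveI : Fact (Nat.Prime 2) := ⟨Nat.prime_two⟩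
  haveI := hS
  have hperf : commutator G = ⊤ := by
    refine (Subgroup.Normal.eq_bot_or_eq_top (H := commutator G) inferInstance).resolve_left fun h => hG ⟨⟨fun x y => ?_⟩⟩
    exact commutatorElement_eq_one_iff_mul_comm.1
      (Subgroup.mem_bot.1 (h ▸ Subgroup.commutator_mem_commutator (Subgroup.mem_top x) (Subgroup.mem_top y)))
  have key : ∀ (k : ℕ) (g₀ : G), g₀⁻¹ * s ^ k * g₀ ∈ (S : Subgroup G) → g₀⁻¹ * s ^ k * g₀ = s ^ k := by
    intro k g₀ h
    obtain ⟨n, hn, e⟩ := S.conj_eq_normalizer_conj_of_mem (s ^ k) g₀ (pow_mem hs k) h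
    rw [e, mul_assoc, ← (Commute.pow_right (hfix n hn : Commute n s) k).eq, inv_mul_cancel_left]
  letI : CommGroup ↥(S : Subgroup G) := { mul_comm := fun a b => mul_comm' a b }
  let φ : G →* ↥(S : Subgroup G) := MonoidHom.transfer (MonoidHom.id ↥(S : Subgroup G))
  have h1 : φ s = 1 := by
    have : (⊤ : Subgroup G) ≤ φ.ker := by
      rw [← hperf, commutator_def, Subgroup.commutator_le]
      intro x _ y _
      rw [MonoidHom.mem_ker, map_commutatorElement]
      exact commutatorElement_eq_one_iff_mul_comm.2 (mul_comm _ _)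
    exact MonoidHom.mem_ker.1 (this (Subgroup.mem_top s))
  rw [show φ s = _ from MonoidHom.transfer_eq_pow (MonoidHom.id ↥(S : Subgroup G)) s key] at h1
  have h2 : s ^ (S : Subgroup G).index = 1 := congrArg Subtype.val h1
  obtain ⟨k, hk⟩ := S.isPGroup' ⟨s, hs⟩
  rw [← orderOf_eq_one_iff]
  exact Nat.eq_one_of_dvd_coprimes (Nat.Coprime.pow_left k (Nat.prime_two.coprime_iff_not_dvd.2 S.not_dvd_index))
    (orderOf_dvd_of_pow_eq_one (congrArg Subtype.val hk)) (orderOf_dvd_of_pow_eq_one h2)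

/-- In a perfect group an abelian Sylow subgroup meets the centre trivially. -/
theorem central_trivial {K : Type*} [Group K] [Finite K] (hK : commutator K = ⊤) (P : Sylow 2 K)
    (hP : ∀ x ∈ (P : Subgroup K), ∀ y ∈ (P : Subgroup K), x * y = y * x) {z : K} (hz : z ∈ (P : Subgroup K))
    (hc : z ∈ Subgroup.center K) : z = 1 := by
  haveI : Fact (Nat.Prime 2) := ⟨Nat.prime_two⟩
  letI : CommGroup ↥(P : Subgroup K) := { mul_comm := fun a b => Subtype.ext (hP _ a.2 _ b.2) }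
  let φ : K →* ↥(P : Subgroup K) := MonoidHom.transfer (MonoidHom.id ↥(P : Subgroup K))
  have key : ∀ (k : ℕ) (g₀ : K), g₀⁻¹ * z ^ k * g₀ ∈ (P : Subgroup K) → g₀⁻¹ * z ^ k * g₀ = z ^ k := by
    intro k g₀ _
    rw [mul_assoc, ← Subgroup.mem_center_iff.1 (pow_mem hc k) g₀, inv_mul_cancel_left]
  have h1 : φ z = 1 := by
    have : (⊤ : Subgroup K) ≤ φ.ker := by
      rw [← hK, commutator_def, Subgroup.commutator_le]
      intro x _ y _
      rw [MonoidHom.mem_ker, map_commutatorElement]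
      exact commutatorElement_eq_one_iff_mul_comm.2 (mul_comm _ _)
    exact MonoidHom.mem_ker.1 (this (Subgroup.mem_top z))
  rw [show φ z = _ from MonoidHom.transfer_eq_pow (MonoidHom.id ↥(P : Subgroup K)) z key] at h1
  have h2 : z ^ (P : Subgroup K).index = 1 := congrArg Subtype.val h1
  obtain ⟨k, hk⟩ := P.isPGroup' ⟨z, hz⟩
  rw [← orderOf_eq_one_iff]
  exact Nat.eq_one_of_dvd_coprimes (Nat.Coprime.pow_left k (Nat.prime_two.coprime_iff_not_dvd.2 P.not_dvd_index))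
    (orderOf_dvd_of_pow_eq_one (congrArg Subtype.val hk)) (orderOf_dvd_of_pow_eq_one h2)

end Cfsg.Agent.FGS3.JanRee
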