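/-
Automorphisms of 2-power order fixing a Sylow 2-subgroup are inner.
-/
import Cfsg.Agent.FGS3.JanRee.Main

set_option autoImplicit false

namespace Cfsg.Agent.FGS3.JanRee

variable {G : Type*} [Group G] [Finite G] {L : Type*} [Group L] [IsSimpleGroup L]

theorem zmod_two : (1 : Multiplicative (ZMod 2)) = Multiplicative.ofAdd 1 * Multiplicative.ofAdd 1 ∧
    Multiplicative.ofAdd (1 : ZMod 2) ≠ 1 := by decide

theorem inner_aux [IsSimpleGroup G] (hG : ¬ IsMulCommutative G)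
    (hab : ∀ S : Sylow 2 G, IsMulCommutative ↥(S : Subgroup G)) (D : Setup G L)
    (hmax : IsCoatom (Subgroup.centralizer ({D.t} : Set G))) (S₀ : Sylow 2 G)
    (hS : ∀ x, x ∈ (S₀ : Subgroup G) ↔ x ∈ D.T8) (φ : MulAut G) {k : ℕ} (hk : φ ^ 2 ^ k = 1)
    (hfix : ∀ s ∈ (S₀ : Subgroup G), φ s = s) : ∃ g : G, φ = MulAut.conj g := by
  classical
  haveI : Fact (Nat.Prime 2) := ⟨Nat.prime_two⟩
  haveI := hab S₀
  have ht : D.t ∈ (S₀ : Subgroup G) := (hS _).2 ⟨1, Or.inl rfl, Or.inr (by simp)⟩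
  have hVmem : ∀ w, (w = 1 ∨ w = D.a ∨ w = D.b ∨ w = D.a * D.b) → D.j w ∈ (S₀ : Subgroup G) :=
    fun w hw => (hS _).2 ⟨w, hw, Or.inl rfl⟩
  have hcent : ∀ {ψ : MulAut G}, ψ D.t = D.t → ∀ x, D.t * x = x * D.t → D.t * ψ x = ψ x * D.t :=
    fun {ψ} h x hx => by rw [← h, ← map_mul, ← map_mul, hx]
  have hcancel : ∀ y, D.t * y ∈ D.E → y ∉ D.E := fun y h h' =>
    D.t_notE (by have := mul_mem h (inv_mem h'); rwa [mul_inv_cancel_right] at this)
  -- the restriction to E modulo t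
  have hsplit : ∀ e ∈ D.E, φ e ∈ D.E ∨ D.t * φ e ∈ D.E := fun e he =>
    D.split (hcent (hfix _ ht) e (D.E_comm he))
  -- the image of L stays in E
  let χ : L →* Multiplicative (ZMod 2) :=
    MonoidHom.mk' (fun x => if φ (D.j x) ∈ D.E then 1 else Multiplicative.ofAdd 1) (by
      intro x y
      rcases hsplit _ (D.j_E x) with hx | hx <;> rcases hsplit _ (D.j_E y) with hy | hy
      · rw [if_pos hx, if_pos hy, if_pos (by rw [map_mul, map_mul]; exact mul_mem hx hy)]; rfl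
      · rw [if_pos hx, if_neg (hcancel _ hy), if_neg (hcancel _ (by
          have := mul_mem hx hy
          rwa [map_mul, map_mul, ← mul_assoc, D.E_comm hx, mul_assoc]))]
        rfl
      · rw [if_neg (hcancel _ hx), if_pos hy, if_neg (hcancel _ (by
          rw [map_mul, map_mul, ← mul_assoc]; exact mul_mem hx hy))]
        rfl
      · have ht2 := hcent (hfix _ ht) _ (D.E_comm (D.j_E x))
        rw [if_neg (hcancel _ hx), if_neg (hcancel _ hy), if_pos (by
          have := mul_mem hx hy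
          rwa [ht2, mul_assoc, ← mul_assoc D.t, D.tt, one_mul, ← map_mul, ← map_mul] at this)]
        exact zmod_two.1)
  have hE : ∀ x, φ (D.j x) ∈ D.E := by
    intro x
    by_contra hx
    rcases (MonoidHom.normal_ker χ).eq_bot_or_eq_top with h | h
    · have hinj : Function.Injective χ := (MonoidHom.ker_eq_bot_iff χ).1 h
      have h2 := Nat.card_le_card_of_injective χ hinj
      rw [Nat.card_congr Multiplicative.toAdd, Nat.card_zmod] at h2
      haveI : Finite L := Finite.of_injective _ D.j_inj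
      have : 2 < Nat.card L := by
        classical
        haveI := Fintype.ofFinite L
        rw [Nat.card_eq_fintype_card]
        exact Fintype.two_lt_card_iff.2 ⟨1, D.a, D.b, D.a1.symm, D.b1.symm, D.anb⟩
      omega
    · have h1 : χ x = 1 := MonoidHom.mem_ker.1 (h ▸ Subgroup.mem_top x)
      change (if φ (D.j x) ∈ D.E then (1 : Multiplicative (ZMod 2)) else Multiplicative.ofAdd 1) = 1 at h1
      rw [if_neg hx] at h1
      exact absurd h1 zmod_two.2
  -- and in the image of L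
  let J : Subgroup G := D.j.range
  have hJ : ∀ x, φ (D.j x) ∈ J := by
    let N : Subgroup L := J.comap (φ.toMonoidHom.comp D.j)
    let M : Subgroup L := ((D.j.range.map φ.toMonoidHom) ⊓ J).comap D.j
    have hM : M.Normal := by
      refine ⟨fun x hx y => ?_⟩
      obtain ⟨⟨_, ⟨u, rfl⟩, hu⟩, -⟩ := hx
      refine ⟨?_, ⟨_, rfl⟩⟩
      have he : φ⁻¹ (D.j y) ∈ D.E ∨ D.t * φ⁻¹ (D.j y) ∈ D.E :=
        D.split (hcent (ψ := φ⁻¹) (by conv_lhs => rw [← hfix _ ht, MulAut.inv_apply_self]) _ (D.E_comm (D.j_E y)))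
      have key : ∃ v, φ⁻¹ (D.j y) * D.j u * (φ⁻¹ (D.j y))⁻¹ = D.j v := by
        rcases he with he | he
        · exact D.j_normal _ he u
        · obtain ⟨v, hv⟩ := D.j_normal _ he u
          refine ⟨v, ?_⟩
          have hc := D.E_comm (D.j_E v)
          calc φ⁻¹ (D.j y) * D.j u * (φ⁻¹ (D.j y))⁻¹
              = D.t⁻¹ * ((D.t * φ⁻¹ (D.j y)) * D.j u * (D.t * φ⁻¹ (D.j y))⁻¹) * D.t := by group
            _ = D.j v := by rw [hv, mul_assoc, ← hc, inv_mul_cancel_left]
      obtain ⟨v, hv⟩ := key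
      refine ⟨D.j v, ⟨v, rfl⟩, ?_⟩
      show φ (D.j v) = _
      rw [← hv]
      simp only [map_mul, map_inv, MulAut.apply_inv_self]
      rw [show φ (D.j u) = D.j x from hu]
    rcases hM.eq_bot_or_eq_top with h | h
    · exfalso
      have hc : ∀ x y, φ (D.j x) * D.j y = D.j y * φ (D.j x) := by
        intro x y
        obtain ⟨z, hz⟩ := D.j_normal _ (hE x) y
        have hm : z * y⁻¹ ∈ M := by
          refine ⟨?_, ⟨_, rfl⟩⟩
          have hy := D.split (hcent (ψ := φ⁻¹) (by conv_lhs => rw [← hfix _ ht, MulAut.inv_apply_self]) _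
            (D.E_comm (D.j_E y)))
          have key : ∃ v, φ⁻¹ (D.j y) * D.j x⁻¹ * (φ⁻¹ (D.j y))⁻¹ = D.j v := by
            rcases hy with he | he
            · exact D.j_normal _ he _
            · obtain ⟨v, hv⟩ := D.j_normal _ he x⁻¹
              refine ⟨v, ?_⟩
              calc φ⁻¹ (D.j y) * D.j x⁻¹ * (φ⁻¹ (D.j y))⁻¹
                  = D.t⁻¹ * ((D.t * φ⁻¹ (D.j y)) * D.j x⁻¹ * (D.t * φ⁻¹ (D.j y))⁻¹) * D.t := by group
                _ = D.j v := by rw [hv, mul_assoc, ← D.E_comm (D.j_E v), inv_mul_cancel_left]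
          obtain ⟨v, hv⟩ := key
          refine ⟨D.j (x * v), ⟨_, rfl⟩, ?_⟩
          show φ (D.j (x * v)) = D.j (z * y⁻¹)
          rw [map_mul D.j x v, ← hv, map_mul D.j z, map_inv D.j y, ← hz]
          simp only [map_mul, map_inv, MulAut.apply_inv_self]
          group
        rw [h, Subgroup.mem_bot, mul_inv_eq_one] at hm
        rw [hm] at hz
        exact (mul_inv_eq_iff_eq_mul.1 hz)
      have := D.j_cent _ (hE D.a) (hc D.a)
      exact D.a1 (D.j_inj (φ.injective (by rw [this, map_one, map_one])))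
    · intro x
      obtain ⟨⟨_, ⟨u, rfl⟩, hu⟩, -⟩ : x ∈ M := h ▸ Subgroup.mem_top x
      -- images of L cover L, hence by counting the converse
      haveI : Finite L := Finite.of_injective _ D.j_inj
      choose g hg using fun y : L => show ∃ u, φ (D.j u) = D.j y from by
        obtain ⟨⟨_, ⟨u, rfl⟩, hu⟩, -⟩ : y ∈ M := h ▸ Subgroup.mem_top y
        exact ⟨u, hu⟩
      have hgi : Function.Injective g := fun p q e => D.j_inj (by rw [← hg p, ← hg q, e])
      obtain ⟨y, rfl⟩ := (Finite.injective_iff_surjective.1 hgi) x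
      exact ⟨y, (hg y).symm⟩
  choose β hβ using hJ
  haveI : Finite L := Finite.of_injective _ D.j_inj
  have hβinj : Function.Injective β := fun p q e => D.j_inj (φ.injective (by rw [← hβ, ← hβ, e]))
  let B : MulAut L := MulEquiv.ofBijective
    (MonoidHom.mk' β fun p q => D.j_inj (by rw [hβ, map_mul, map_mul, map_mul, hβ, hβ]))
    ⟨hβinj, Finite.injective_iff_surjective.1 hβinj⟩
  have hB : ∀ x, D.j (B x) = φ (D.j x) := hβ
  have hpow : ∀ (n : ℕ) x, D.j ((B ^ n) x) = (φ ^ n) (D.j x) := by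
    intro n
    induction n with
    | zero => intro x; rfl
    | succ n ih => intro x; rw [pow_succ', MulAut.mul_apply, hB, ih, pow_succ', MulAut.mul_apply]
  obtain ⟨w, hw, hBw⟩ := D.aut B ⟨k, MulEquiv.ext fun x => D.j_inj (by rw [hpow, hk]; rfl)⟩
    (D.j_inj (by rw [hB, hfix _ (hVmem _ (Or.inr (Or.inl rfl)))]))
    (D.j_inj (by rw [hB, hfix _ (hVmem _ (Or.inr (Or.inr (Or.inl rfl))))]))
  have hcS : ∀ {x y}, x ∈ (S₀ : Subgroup G) → y ∈ (S₀ : Subgroup G) → x * y = y * x := fun {x y} hx hy =>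
    congrArg Subtype.val (mul_comm' (⟨x, hx⟩ : (S₀ : Subgroup G)) ⟨y, hy⟩)
  have hwS := hVmem w hw
  have hwi : (D.j w)⁻¹ = D.j w := inv_eq_of_mul_eq_one_right (by rw [← map_mul, D.w_sq hw, map_one])
  set c := MulAut.conj (D.j w) with hcdef
  have hcc : c * c = 1 := by rw [hcdef, ← map_mul, ← map_mul, D.w_sq hw, map_one, map_one]
  have hcomm : Commute c φ := MulEquiv.ext fun x => by
    show D.j w * φ x * (D.j w)⁻¹ = φ (D.j w * x * (D.j w)⁻¹)
    rw [map_mul, map_mul, map_inv, hfix _ hwS]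
  set ψ : MulAut G := c * φ with hψ
  have hψk : ψ ^ 2 ^ (k + 1) = 1 := by
    rw [hψ, hcomm.mul_pow, pow_succ (2 : ℕ), pow_mul φ, hk, one_pow, mul_one, mul_comm, pow_mul,
      pow_two, hcc, one_pow]
  have hψS : ∀ s ∈ (S₀ : Subgroup G), ψ s = s := fun s hs => by
    rw [hψ, MulAut.mul_apply, hfix s hs, hcdef, MulAut.conj_apply, hcS hwS hs, mul_inv_cancel_right]
  have hψL : ∀ x, ψ (D.j x) = D.j x := fun x => by
    rw [hψ, MulAut.mul_apply, ← hB, hBw, hcdef, MulAut.conj_apply, MulAut.conj_apply, ← map_inv, ← map_mul,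
      ← map_mul]
    refine congrArg D.j ?_
    have h2 : w * w = 1 := D.w_sq hw
    calc w * (w * x * w⁻¹) * w⁻¹ = (w * w) * x * (w * w)⁻¹ := by group
      _ = x := by rw [h2, inv_one, one_mul, mul_one]
  have h2el : ∀ y : G, (∃ n : ℕ, y ^ 2 ^ n = 1) → D.t * y = y * D.t → y * D.j D.a = D.j D.a * y →
      y * D.j D.b = D.j D.b * y → y ∈ (S₀ : Subgroup G) := by
    intro y ⟨n, hy⟩ hty hya hyb
    rcases D.split hty with he | he
    · obtain ⟨v, hv, rfl⟩ := D.E_two he ⟨n, hy⟩ hya hyb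
      exact hVmem v hv
    · obtain ⟨v, hv, e⟩ := D.E_two he ⟨n + 1, by
        rw [(show Commute D.t y from hty).mul_pow, pow_succ, pow_mul y, hy, one_pow, mul_one, mul_comm, pow_mul,
          pow_two, D.tt, one_pow]⟩
        (by rw [mul_assoc, hya, ← mul_assoc, D.E_comm (D.j_E _), mul_assoc])
        (by rw [mul_assoc, hyb, ← mul_assoc, D.E_comm (D.j_E _), mul_assoc])
      exact (hS _).2 ⟨v, hv, Or.inr (by rw [← e, ← mul_assoc, D.tt, one_mul])⟩
  -- ψ fixes E
  have hψE : ∀ e ∈ D.E, ψ e = e ∨ ψ e = D.t * e := by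
    intro e he
    have hcen : ∀ x, e * D.j x * e⁻¹ = ψ e * D.j x * (ψ e)⁻¹ := by
      intro x
      obtain ⟨y, hy⟩ := D.j_normal e he x
      rw [hy, ← hψL y, ← hy, map_mul, map_mul, map_inv, hψL]
    rcases D.split (hcent (hψS _ ht) e (D.E_comm he)) with h | h
    · refine Or.inl (inv_mul_eq_one.1 (D.j_cent _ (mul_mem (inv_mem he) h) fun x => ?_)).symm
      calc e⁻¹ * ψ e * D.j x = e⁻¹ * (ψ e * D.j x * (ψ e)⁻¹) * ψ e := by group
        _ = _ := by rw [← hcen]; group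
    · refine Or.inr ?_
      have := D.j_cent _ (mul_mem (inv_mem he) h) fun x => by
        calc e⁻¹ * (D.t * ψ e) * D.j x = e⁻¹ * (D.t * (ψ e * D.j x * (ψ e)⁻¹)) * ψ e := by group
          _ = e⁻¹ * (D.t * (e * D.j x * e⁻¹)) * ψ e := by rw [hcen]
          _ = e⁻¹ * ((e * D.j x * e⁻¹) * D.t) * ψ e := by
            rw [D.E_comm (mul_mem (mul_mem he (D.j_E x)) (inv_mem he))]
          _ = _ := by group
      rw [inv_mul_eq_one] at this
      conv_rhs => rw [this, ← mul_assoc, D.tt, one_mul]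
  have hψE' : ∀ e ∈ D.E, ψ e = e := by
    intro e he
    refine (hψE e he).resolve_right fun hte => ?_
    obtain ⟨n, m, hm, ho⟩ := Nat.exists_eq_two_pow_mul_odd (orderOf_pos e).ne'
    obtain ⟨r, rfl⟩ := hm
    set y := e ^ (2 * r + 1) with hy
    have hyE : y ∈ D.E := pow_mem he _
    have hty : ψ y = D.t * y := by
      rw [hy, map_pow, hte, (show Commute D.t e from D.E_comm he).mul_pow, pow_succ D.t, pow_mul, pow_two, D.tt,
        one_pow, one_mul]
    have hy2 : y ^ 2 ^ n = 1 := by rw [hy, ← pow_mul, mul_comm, ← ho, pow_orderOf_eq_one]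
    have hle : (S₀ : Subgroup G) ≤ Subgroup.centralizer ({D.t} : Set G) := fun s hs =>
      Subgroup.mem_centralizer_singleton_iff.2 (hcS hs ht)
    let P₀ : Sylow 2 ↥(Subgroup.centralizer ({D.t} : Set G)) := S₀.subtype hle
    have hyC : y ∈ Subgroup.centralizer ({D.t} : Set G) :=
      Subgroup.mem_centralizer_singleton_iff.2 (D.E_comm hyE).symm
    obtain ⟨Q, hQ⟩ := (IsPGroup.of_card (p := 2) (n := Nat.log 2 (orderOf (⟨y, hyC⟩ :
        ↥(Subgroup.centralizer ({D.t} : Set G))))) (by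
      rw [Nat.card_zpowers]
      obtain ⟨i, -, hi⟩ := (Nat.dvd_prime_pow Nat.prime_two).1 (orderOf_dvd_of_pow_eq_one
        (show (⟨y, hyC⟩ : ↥(Subgroup.centralizer ({D.t} : Set G))) ^ 2 ^ n = 1 from Subtype.ext hy2))
      rw [hi, Nat.log_pow one_lt_two]) :
      IsPGroup 2 ↥(Subgroup.zpowers (⟨y, hyC⟩ : ↥(Subgroup.centralizer ({D.t} : Set G))))).exists_le_sylow
    obtain ⟨g, hg⟩ := MulAction.exists_smul_eq ↥(Subgroup.centralizer ({D.t} : Set G)) P₀ Q
    have hmem := hQ (Subgroup.mem_zpowers _)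
    rw [← hg] at hmem
    change (⟨y, hyC⟩ : ↥(Subgroup.centralizer ({D.t} : Set G))) ∈
      (P₀ : Subgroup _).map (MulAut.conj g).toMonoidHom at hmem
    obtain ⟨s, hs, hse⟩ := hmem
    have hsG : (s : G) ∈ (S₀ : Subgroup G) := hs
    have hye : (g : G) * (s : G) * (g : G)⁻¹ = y := congrArg Subtype.val hse
    have hg' : ψ (g : G) = g ∨ ψ (g : G) = D.t * g := by
      have hgt : D.t * (g : G) = g * D.t := (Subgroup.mem_centralizer_singleton_iff.1 g.2).symm
      rcases D.split hgt with h | h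
      · exact hψE _ h
      · rcases hψE _ h with e1 | e1 <;> rw [map_mul, hψS _ ht, mul_right_inj] at e1
        · exact Or.inl e1
        · exact Or.inr e1
    have htg : D.t * (g : G) = g * D.t := (Subgroup.mem_centralizer_singleton_iff.1 g.2).symm
    have : ψ y = y := by
      rw [← hye, map_mul, map_mul, map_inv, hψS _ hsG]
      rcases hg' with e1 | e1
      · rw [e1]
      · rw [e1, mul_inv_rev, D.t_inv, mul_assoc D.t, mul_assoc D.t, ← mul_assoc _ _ D.t, ← D.E_comm (hye ▸ hyE : (g : G) * s * (g : G)⁻¹ ∈ D.E),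
          ← mul_assoc D.t D.t, D.tt, one_mul]
    rw [this, right_eq_mul] at hty
    exact D.t1 hty
  have hψC : ∀ x, D.t * x = x * D.t → ψ x = x := by
    intro x hx
    rcases D.split hx with h | h
    · exact hψE' x h
    · have := hψE' _ h
      rwa [map_mul, hψS _ ht, mul_right_inj] at this
  -- the crossed homomorphism on the normaliser
  set Nm := Subgroup.normalizer ((S₀ : Subgroup G) : Set G) with hNm
  have hχ : ∀ x ∈ Nm, x⁻¹ * ψ x ∈ (S₀ : Subgroup G) := by
    intro x hx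
    have hcs : ∀ s ∈ (S₀ : Subgroup G), (x⁻¹ * ψ x) * s = s * (x⁻¹ * ψ x) := by
      intro s hs
      have h1 : x * s * x⁻¹ ∈ (S₀ : Subgroup G) := (Subgroup.mem_normalizer_iff.1 hx s).1 hs
      have h2 := hψS _ h1
      rw [map_mul, map_mul, map_inv, hψS s hs] at h2
      calc x⁻¹ * ψ x * s = x⁻¹ * (ψ x * s * (ψ x)⁻¹) * ψ x := by group
        _ = _ := by rw [h2]; group
    have hfixc := hψC _ (hcs _ ht).symm
    have hpw : ∀ n : ℕ, (ψ ^ n) x = x * (x⁻¹ * ψ x) ^ n := by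
      intro n
      induction n with
      | zero => simp
      | succ n ih =>
        rw [pow_succ', MulAut.mul_apply, ih, map_mul, map_pow, hfixc, pow_succ' (x⁻¹ * ψ x), ← mul_assoc,
          mul_inv_cancel_left]
    have hord : (x⁻¹ * ψ x) ^ 2 ^ (k + 1) = 1 := by
      have := hpw (2 ^ (k + 1))
      rwa [hψk, MulAut.one_apply, left_eq_mul] at this
    exact h2el _ ⟨_, hord⟩ (hcs _ ht).symm (hcs _ (hVmem _ (Or.inr (Or.inl rfl))))
      (hcs _ (hVmem _ (Or.inr (Or.inr (Or.inl rfl)))))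
  letI : CommGroup ↥(S₀ : Subgroup G) := { mul_comm := fun a b => mul_comm' a b }
  haveI : Fintype (↥Nm ⧸ (S₀ : Subgroup G).subgroupOf Nm) := Fintype.ofFinite _
  haveI : ((S₀ : Subgroup G).subgroupOf Nm).Normal := Subgroup.normal_in_normalizer
  let χ' : ↥Nm → ↥(S₀ : Subgroup G) := fun x => ⟨(x : G)⁻¹ * ψ x, hχ x x.2⟩
  have hχmul : ∀ x y : ↥Nm, ((χ' (x * y) : ↥(S₀ : Subgroup G)) : G) = (y : G)⁻¹ * (χ' x) * y * χ' y := by
    intro x y
    show ((x : G) * y)⁻¹ * ψ ((x : G) * y) = (y : G)⁻¹ * ((x : G)⁻¹ * ψ x) * y * ((y : G)⁻¹ * ψ y)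
    rw [map_mul]; group
  have hcong : ∀ x y : ↥Nm, (x : ↥Nm ⧸ (S₀ : Subgroup G).subgroupOf Nm) = y → χ' x = χ' y := by
    intro x y h
    have hs0 := QuotientGroup.eq.1 h
    have hs : ((x⁻¹ * y : ↥Nm) : G) ∈ (S₀ : Subgroup G) := Subgroup.mem_subgroupOf.1 hs0
    have e := hψS _ hs
    apply Subtype.ext
    show (x : G)⁻¹ * ψ x = (y : G)⁻¹ * ψ y
    simp only [Subgroup.coe_mul, InvMemClass.coe_inv] at hs e
    have hy : (y : G) = x * ((x : G)⁻¹ * y) := by group
    have hc2 := hcS (hχ x x.2) hs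
    rw [hy, map_mul, e]
    calc (x : G)⁻¹ * ψ x = ((x : G)⁻¹ * y)⁻¹ * (((x : G)⁻¹ * y) * ((x : G)⁻¹ * ψ x)) := by group
      _ = ((x : G)⁻¹ * y)⁻¹ * (((x : G)⁻¹ * ψ x) * ((x : G)⁻¹ * y)) := by rw [hc2]
      _ = _ := by group
  let Pr : ↥(S₀ : Subgroup G) := ∏ q : ↥Nm ⧸ (S₀ : Subgroup G).subgroupOf Nm, χ' q.out
  have hodd : Odd (Fintype.card (↥Nm ⧸ (S₀ : Subgroup G).subgroupOf Nm)) := by
    rw [← Nat.not_even_iff_odd, even_iff_two_dvd, ← Nat.card_eq_fintype_card]
    exact fun h => S₀.not_dvd_index (h.trans (Subgroup.relIndex_dvd_index_of_le Subgroup.le_normalizer))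
  have hsq : ∀ s : ↥(S₀ : Subgroup G), s * s = 1 := fun s => Subtype.ext (D.T8_sq ((hS _).1 s.2))
  have hPr : ∀ x : ↥Nm, ((x : G))⁻¹ * (Pr : G) * x * (χ' x : G) = (Pr : G) := by
    intro x
    let cj : ↥(S₀ : Subgroup G) →* ↥(S₀ : Subgroup G) :=
      (Subgroup.normalizerMonoidHom (S₀ : Subgroup G) x⁻¹).toMonoidHom
    have hcj : ∀ s, (cj s : G) = (x : G)⁻¹ * s * x := fun s => by
      show ((x⁻¹ : ↥Nm) : G) * s * ((x⁻¹ : ↥Nm) : G)⁻¹ = _
      simp
    have hterm : ∀ q : ↥Nm ⧸ (S₀ : Subgroup G).subgroupOf Nm, χ' (q * (x : ↥Nm ⧸ _)).out = cj (χ' q.out) * χ' x := by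
      intro q
      rw [hcong _ (q.out * x) (by simp)]
      exact Subtype.ext (by rw [Subgroup.coe_mul, hcj, hχmul])
    have h1 : Pr = cj Pr * χ' x := by
      conv_lhs => rw [show Pr = ∏ q, χ' (q * (x : ↥Nm ⧸ (S₀ : Subgroup G).subgroupOf Nm)).out from
        (Equiv.prod_comp (Equiv.mulRight (x : ↥Nm ⧸ (S₀ : Subgroup G).subgroupOf Nm)) fun q => χ' q.out).symm]
      rw [Finset.prod_congr rfl fun q _ => hterm q, Finset.prod_mul_distrib, ← map_prod, Finset.prod_const,
        Finset.card_univ]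
      obtain ⟨r, hr⟩ := hodd
      rw [hr, pow_succ, pow_mul, pow_two, hsq, one_pow, one_mul]
    conv_rhs => rw [h1, Subgroup.coe_mul, hcj]
  have hh : D.j D.h ∈ Nm := by
    refine Subgroup.mem_normalizer_fintype fun s hs => ?_
    obtain ⟨v, hv, e⟩ := (hS s).1 hs
    have hv' : D.h * v * D.h⁻¹ = 1 ∨ D.h * v * D.h⁻¹ = D.a ∨ D.h * v * D.h⁻¹ = D.b ∨
        D.h * v * D.h⁻¹ = D.a * D.b := by
      rcases hv with rfl | rfl | rfl | rfl
      · left; simp
      · right; right; right; exact D.ha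
      · right; left; exact D.hb
      · right; right; left
        rw [show D.h * (D.a * D.b) * D.h⁻¹ = (D.h * D.a * D.h⁻¹) * (D.h * D.b * D.h⁻¹) by group, D.ha, D.hb,
          D.ab, mul_assoc, D.aa, mul_one]
    refine (hS _).2 ⟨_, hv', e.imp (fun e => by rw [e, map_mul, map_mul, map_inv]) fun e => ?_⟩
    rw [e, ← mul_assoc (D.j D.h), ← D.E_comm (D.j_E D.h), map_mul, map_mul, map_inv]
    group
  obtain ⟨v, hv, hPrv⟩ := (hS _).1 Pr.2
  have hPrh := hPr ⟨_, hh⟩
  have hχh : (χ' ⟨_, hh⟩ : G) = 1 := by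
    show (D.j D.h)⁻¹ * ψ (D.j D.h) = 1
    rw [hψL, inv_mul_cancel]
  rw [hχh, mul_one] at hPrh
  have hv1 : v = 1 := by
    refine D.h_fix hv ?_
    have h3 : D.h⁻¹ * v * D.h = v := by
      apply D.j_inj
      rw [map_mul, map_mul, map_inv]
      rcases hPrv with e | e
      · rw [← e]; exact hPrh
      · have : (D.j D.h)⁻¹ * (D.t * D.j v) * D.j D.h = D.t * D.j v := e ▸ hPrh
        have hc := D.E_comm (inv_mem (D.j_E D.h))
        rw [← mul_assoc _ D.t, ← hc, mul_assoc D.t, mul_assoc D.t, mul_right_inj] at this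
        exact this
    calc D.h * v * D.h⁻¹ = D.h * (D.h⁻¹ * v * D.h) * D.h⁻¹ := by rw [h3]
      _ = v := by group
  subst hv1
  rw [map_one, mul_one] at hPrv
  have hPrC : ∀ x, D.t * x = x * D.t → (Pr : G) * x = x * Pr := by
    intro x hx
    rcases hPrv with e | e <;> rw [e]
    · simp
    · exact hx
  set ω : MulAut G := MulAut.conj (Pr : G) * ψ with hω
  let Fx : Subgroup G := { carrier := {x | ω x = x}
                           one_mem' := map_one ω
                           mul_mem' := fun {x y} (hx : ω x = x) (hy : ω y = y) => by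
                             show ω (x * y) = x * y
                             rw [map_mul, hx, hy]
                           inv_mem' := fun {x} (hx : ω x = x) => by
                             show ω x⁻¹ = x⁻¹
                             rw [map_inv, hx] }
  have hCF : Subgroup.centralizer ({D.t} : Set G) ≤ Fx := fun x hx => by
    show ω x = x
    have hx' : D.t * x = x * D.t := (Subgroup.mem_centralizer_singleton_iff.1 hx).symm
    rw [hω, MulAut.mul_apply, hψC x hx', MulAut.conj_apply, hPrC x hx', mul_inv_cancel_right]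
  have hNF : ∀ x : ↥Nm, ω x = x := fun x => by
    have h1 : ψ (x : G) = x * (χ' x : G) := by
      show _ = (x : G) * ((x : G)⁻¹ * ψ x)
      group
    have h2 := hPr x
    rw [hω, MulAut.mul_apply, h1, MulAut.conj_apply]
    calc (Pr : G) * ((x : G) * (χ' x : G)) * (Pr : G)⁻¹
        = (Pr : G) * x * ((x : G)⁻¹ * Pr * x)⁻¹ * ((x : G)⁻¹ * Pr * x * (χ' x : G)) * (Pr : G)⁻¹ := by group
      _ = _ := by rw [h2]; group
  have htop : Fx = ⊤ := by
    refine (hmax.le_iff.1 hCF).resolve_right fun e => ?_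
    refine D.t1 (fixed_trivial hG S₀ (hab S₀) ht fun n hn => ?_)
    have : n ∈ Subgroup.centralizer ({D.t} : Set G) := e ▸ (hNF ⟨n, hn⟩ : n ∈ Fx)
    exact Subgroup.mem_centralizer_singleton_iff.1 this
  have hω1 : ω = 1 := MulEquiv.ext fun x => (htop ▸ Subgroup.mem_top x : x ∈ Fx)
  refine ⟨((Pr : G) * D.j w)⁻¹, ?_⟩
  rw [map_inv, map_mul, ← hcdef, eq_comm, inv_eq_iff_mul_eq_one, mul_assoc]
  exact hω1

theorem inner [IsSimpleGroup G] (hG : ¬ IsMulCommutative G)
    (hab : ∀ S : Sylow 2 G, IsMulCommutative ↥(S : Subgroup G)) (D : Setup G L)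
    (hmax : IsCoatom (Subgroup.centralizer ({D.t} : Set G))) (φ : MulAut G) {k : ℕ} (hk : φ ^ 2 ^ k = 1)
    (S : Sylow 2 G) (hfix : ∀ s ∈ (S : Subgroup G), φ s = s) : ∃ g : G, φ = MulAut.conj g := by
  haveI : Fact (Nat.Prime 2) := ⟨Nat.prime_two⟩
  obtain ⟨S₀, hS⟩ := D.exists_sylow hab
  obtain ⟨x, rfl⟩ := MulAction.exists_smul_eq G S₀ S
  obtain ⟨g, hg⟩ := inner_aux hG hab D hmax S₀ hS ((MulAut.conj x)⁻¹ * φ * (MulAut.conj x)⁻¹⁻¹) (k := k)
    (by rw [conj_pow, hk, mul_one, mul_inv_cancel]) (fun s hs => by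
      have := hfix (x * s * x⁻¹) ⟨s, hs, rfl⟩
      rw [MulAut.mul_apply, MulAut.mul_apply, inv_inv, MulAut.conj_apply, this, ← MulAut.conj_apply,
        MulAut.inv_apply_self])
  refine ⟨x * g * x⁻¹, ?_⟩
  rw [map_mul, map_mul, map_inv, ← hg]
  group

end Cfsg.Agent.FGS3.JanRee
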