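/-
No perfect central extension by a 2-group: the commutator pairing on the Sylow 2-subgroup vanishes.
-/
import Cfsg.Agent.FGS3.JanRee.Main

set_option autoImplicit false

open scoped commutatorElement

namespace Cfsg.Agent.FGS3.JanRee

variable {G : Type*} [Group G] {K : Type*} [Group K]

theorem comm_mul_right (x y y' : K) : ⁅x, y * y'⁆ = ⁅x, y⁆ * (y * ⁅x, y'⁆ * y⁻¹) := by
  simp only [commutatorElement_def]; group

theorem comm_central_left (x y : K) {z : K} (hz : z ∈ Subgroup.center K) : ⁅x * z, y⁆ = ⁅x, y⁆ := by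
  simp only [commutatorElement_def, mul_inv_rev]
  rw [show x * z * y * (z⁻¹ * x⁻¹) = x * (z * y) * z⁻¹ * x⁻¹ by group, ← Subgroup.mem_center_iff.1 hz y]
  group

theorem comm_central_right (x y : K) {z : K} (hz : z ∈ Subgroup.center K) : ⁅x, y * z⁆ = ⁅x, y⁆ := by
  rw [← commutatorElement_inv, comm_central_left y x hz, commutatorElement_inv]

section Pairing

variable (f : K →* G) (hf : Function.Surjective f) (hker : ∀ z, f z = 1 → z ∈ Subgroup.center K)

/-- The commutator of lifts. -/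
noncomputable def pairing (s s' : G) : K := ⁅(hf s).choose, (hf s').choose⁆

include hker

theorem pairing_eq {x y : K} {s s' : G} (hx : f x = s) (hy : f y = s') : pairing f hf s s' = ⁅x, y⁆ := by
  have aux : ∀ {u v : K}, f u = f v → ∃ z ∈ Subgroup.center K, u = v * z := fun {u v} e =>
    ⟨v⁻¹ * u, hker _ (by rw [map_mul, map_inv, e, inv_mul_cancel]), by group⟩
  obtain ⟨z, hz, e⟩ := aux ((hf s).choose_spec.trans hx.symm)
  obtain ⟨z', hz', e'⟩ := aux ((hf s').choose_spec.trans hy.symm)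
  rw [pairing, e, e', comm_central_left _ _ hz, comm_central_right _ _ hz']

theorem pairing_central {s s' : G} (h : s * s' = s' * s) : pairing f hf s s' ∈ Subgroup.center K :=
  hker _ (by
    rw [pairing, map_commutatorElement, (hf s).choose_spec, (hf s').choose_spec]
    exact commutatorElement_eq_one_iff_mul_comm.2 h)

theorem pairing_conj {s s' : G} (h : s * s' = s' * s) (g : G) :
    pairing f hf (g * s * g⁻¹) (g * s' * g⁻¹) = pairing f hf s s' := by
  obtain ⟨u, rfl⟩ := hf g
  obtain ⟨x, rfl⟩ := hf s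
  obtain ⟨y, rfl⟩ := hf s'
  have hc := pairing_central f hf hker h
  rw [pairing_eq f hf hker rfl rfl] at hc
  rw [pairing_eq f hf hker (x := u * x * u⁻¹) (y := u * y * u⁻¹) (by simp) (by simp),
    pairing_eq f hf hker (x := x) (y := y) rfl rfl]
  calc ⁅u * x * u⁻¹, u * y * u⁻¹⁆ = u * ⁅x, y⁆ * u⁻¹ := by simp only [commutatorElement_def]; group
    _ = _ := by rw [Subgroup.mem_center_iff.1 hc u, mul_inv_cancel_right]

theorem pairing_mul {s s' s'' : G} (h : s * s'' = s'' * s) :
    pairing f hf s (s' * s'') = pairing f hf s s' * pairing f hf s s'' := by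
  obtain ⟨x, rfl⟩ := hf s
  obtain ⟨y, rfl⟩ := hf s'
  obtain ⟨y', rfl⟩ := hf s''
  have hc := pairing_central f hf hker h
  rw [pairing_eq f hf hker rfl rfl] at hc
  rw [pairing_eq f hf hker (x := x) (y := y * y') rfl (map_mul _ _ _),
    pairing_eq f hf hker (x := x) (y := y) rfl rfl, pairing_eq f hf hker (x := x) (y := y') rfl rfl,
    comm_mul_right, Subgroup.mem_center_iff.1 hc y, mul_inv_cancel_right]

theorem pairing_self (s : G) : pairing f hf s s = 1 := commutatorElement_self _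

theorem pairing_one (s : G) : pairing f hf s 1 = 1 := by
  rw [pairing_eq f hf hker (x := (hf s).choose) (y := 1) (hf s).choose_spec (map_one f), commutatorElement_one_right]

theorem pairing_swap (s s' : G) : pairing f hf s' s = (pairing f hf s s')⁻¹ := (commutatorElement_inv _ _).symm

end Pairing

variable [Finite G] {L : Type*} [Group L]

theorem covers [IsSimpleGroup G] (hG : ¬ IsMulCommutative G)
    (hab : ∀ S : Sylow 2 G, IsMulCommutative ↥(S : Subgroup G)) (D : Setup G L) [Finite K]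
    (hK : commutator K = ⊤) (f : K →* G) (hf : Function.Surjective f) (hc : f.ker ≤ Subgroup.center K)
    (h2 : IsPGroup 2 f.ker) : f.ker = ⊥ := by
  haveI : Fact (Nat.Prime 2) := ⟨Nat.prime_two⟩
  obtain ⟨S₀, hS⟩ := D.exists_sylow hab
  haveI := hab S₀
  have hker : ∀ z, f z = 1 → z ∈ Subgroup.center K := fun z h => hc h
  have hcS : ∀ {x y}, x ∈ (S₀ : Subgroup G) → y ∈ (S₀ : Subgroup G) → x * y = y * x := fun {x y} hx hy =>
    congrArg Subtype.val (mul_comm' (⟨x, hx⟩ : (S₀ : Subgroup G)) ⟨y, hy⟩)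
  have ht : D.t ∈ (S₀ : Subgroup G) := (hS _).2 ⟨1, Or.inl rfl, Or.inr (by simp)⟩
  have ha : D.j D.a ∈ (S₀ : Subgroup G) := (hS _).2 ⟨_, Or.inr (Or.inl rfl), Or.inl rfl⟩
  have hb : D.j D.b ∈ (S₀ : Subgroup G) := (hS _).2 ⟨_, Or.inr (Or.inr (Or.inl rfl)), Or.inl rfl⟩
  set κ := pairing f hf with hκ
  have htfix : D.j D.h * D.t * (D.j D.h)⁻¹ = D.t := by
    rw [← D.E_comm (D.j_E D.h), mul_inv_cancel_right]
  have hbh : D.j D.h * D.j D.b * (D.j D.h)⁻¹ = D.j D.a := by rw [← map_inv, ← map_mul, ← map_mul, D.hb]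
  have hah : D.j D.h * D.j D.a * (D.j D.h)⁻¹ = D.j D.a * D.j D.b := by
    rw [← map_inv, ← map_mul, ← map_mul, D.ha, map_mul]
  have e1 : κ D.t (D.j D.a) = κ D.t (D.j D.b) := by
    have := pairing_conj f hf hker (hcS ht hb) (D.j D.h)
    rwa [htfix, hbh] at this
  have e2 : κ D.t (D.j D.b) = 1 := by
    have := pairing_conj f hf hker (hcS ht ha) (D.j D.h)
    rw [htfix, hah, pairing_mul f hf hker (hcS ht hb)] at this
    simpa using this
  have e1' : κ D.t (D.j D.a) = 1 := e1.trans e2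
  have tall : ∀ s ∈ (S₀ : Subgroup G), κ D.t s = 1 := by
    intro s hs
    obtain ⟨w, hw, rfl | rfl⟩ := (hS s).1 hs
    · rcases hw with rfl | rfl | rfl | rfl
      · rw [map_one]; exact pairing_one f hf hker _
      · exact e1'
      · exact e2
      · rw [map_mul, hκ, pairing_mul f hf hker (hcS ht hb), ← hκ, e1', e2, one_mul]
    · have hwS : D.j w ∈ (S₀ : Subgroup G) := (hS _).2 ⟨w, hw, Or.inl rfl⟩
      rw [hκ, pairing_mul f hf hker (hcS ht hwS), pairing_self f hf hker, one_mul, ← hκ]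
      rcases hw with rfl | rfl | rfl | rfl
      · rw [map_one]; exact pairing_one f hf hker _
      · exact e1'
      · exact e2
      · rw [map_mul, hκ, pairing_mul f hf hker (hcS ht hb), ← hκ, e1', e2, one_mul]
  obtain ⟨n, hn, hne⟩ : ∃ n ∈ Subgroup.normalizer ((S₀ : Subgroup G) : Set G), n * D.t ≠ D.t * n := by
    by_contra h
    push Not at h
    exact D.t1 (fixed_trivial hG S₀ (hab S₀) ht h)
  have hy : n * D.t * n⁻¹ ∈ (S₀ : Subgroup G) := (Subgroup.mem_normalizer_iff.1 hn D.t).1 ht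
  have yall : ∀ s ∈ (S₀ : Subgroup G), κ (n * D.t * n⁻¹) s = 1 := by
    intro s hs
    have hs' : n⁻¹ * s * n ∈ (S₀ : Subgroup G) := by
      refine (Subgroup.mem_normalizer_iff.1 hn _).2 ?_
      rwa [show n * (n⁻¹ * s * n) * n⁻¹ = s by group]
    have := pairing_conj f hf hker (hcS ht hs') n
    rw [show n * (n⁻¹ * s * n) * n⁻¹ = s by group] at this
    exact this.trans (tall _ hs')
  have tall' : ∀ s ∈ (S₀ : Subgroup G), κ s D.t = 1 := fun s hs => by
    rw [hκ, pairing_swap f hf hker, ← hκ, tall s hs, inv_one]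
  obtain ⟨w, hw, hyw⟩ := (hS _).1 hy
  have hwS : D.j w ∈ (S₀ : Subgroup G) := (hS _).2 ⟨w, hw, Or.inl rfl⟩
  have wall : ∀ s ∈ (S₀ : Subgroup G), κ s (D.j w) = 1 := by
    intro s hs
    have h1 : κ s (n * D.t * n⁻¹) = 1 := by rw [hκ, pairing_swap f hf hker, ← hκ, yall s hs, inv_one]
    rcases hyw with e | e
    · rwa [e] at h1
    · rwa [e, hκ, pairing_mul f hf hker (hcS hs hwS), ← hκ, tall' s hs, one_mul] at h1
  have hw1 : w ≠ 1 := by
    rintro rfl
    rcases hyw with e | e
    · rw [map_one, conj_eq_one_iff] at e; exact D.t1 e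
    · rw [map_one, mul_one, mul_inv_eq_iff_eq_mul] at e; exact hne e
  have eab : κ (D.j D.a) (D.j D.b) = 1 := by
    rcases hw with rfl | rfl | rfl | rfl
    · exact absurd rfl hw1
    · rw [hκ, pairing_swap f hf hker, ← hκ, wall _ hb, inv_one]
    · exact wall _ ha
    · have := wall _ ha
      rwa [map_mul, hκ, pairing_mul f hf hker (hcS ha hb), pairing_self f hf hker, one_mul] at this
  have aall : ∀ s ∈ (S₀ : Subgroup G), κ (D.j D.a) s = 1 ∧ κ (D.j D.b) s = 1 := by
    have eba : κ (D.j D.b) (D.j D.a) = 1 := by rw [hκ, pairing_swap f hf hker, ← hκ, eab, inv_one]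
    have hV : ∀ v : L, (v = 1 ∨ v = D.a ∨ v = D.b ∨ v = D.a * D.b) →
        κ (D.j D.a) (D.j v) = 1 ∧ κ (D.j D.b) (D.j v) = 1 := by
      rintro v (rfl | rfl | rfl | rfl)
      · rw [map_one]; exact ⟨pairing_one f hf hker _, pairing_one f hf hker _⟩
      · exact ⟨pairing_self f hf hker _, eba⟩
      · exact ⟨eab, pairing_self f hf hker _⟩
      · rw [map_mul, hκ, pairing_mul f hf hker (hcS ha hb), pairing_mul f hf hker (hcS hb hb),
          pairing_self f hf hker, pairing_self f hf hker, one_mul, mul_one, ← hκ]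
        exact ⟨eab, eba⟩
    intro s hs
    obtain ⟨v, hv, rfl | rfl⟩ := (hS s).1 hs
    · exact hV v hv
    · have hvS : D.j v ∈ (S₀ : Subgroup G) := (hS _).2 ⟨v, hv, Or.inl rfl⟩
      rw [hκ, pairing_mul f hf hker (hcS ha hvS), pairing_mul f hf hker (hcS hb hvS), ← hκ,
        tall' _ ha, tall' _ hb, one_mul, one_mul]
      exact hV v hv
  have all : ∀ s ∈ (S₀ : Subgroup G), ∀ s' ∈ (S₀ : Subgroup G), κ s s' = 1 := by
    intro s hs s' hs'
    have h1 : ∀ v : L, (v = 1 ∨ v = D.a ∨ v = D.b ∨ v = D.a * D.b) → κ s' (D.j v) = 1 := by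
      rintro v (rfl | rfl | rfl | rfl)
      · rw [map_one]; exact pairing_one f hf hker _
      · rw [hκ, pairing_swap f hf hker, ← hκ, (aall s' hs').1, inv_one]
      · rw [hκ, pairing_swap f hf hker, ← hκ, (aall s' hs').2, inv_one]
      · rw [map_mul, hκ, pairing_mul f hf hker (hcS hs' hb), pairing_swap f hf hker (D.j D.a) s',
          pairing_swap f hf hker (D.j D.b) s', ← hκ, (aall s' hs').1, (aall s' hs').2, inv_one, one_mul]
    obtain ⟨v, hv, rfl | rfl⟩ := (hS s).1 hs
    · rw [hκ, pairing_swap f hf hker, ← hκ, h1 v hv, inv_one]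
    · have hvS : D.j v ∈ (S₀ : Subgroup G) := (hS _).2 ⟨v, hv, Or.inl rfl⟩
      rw [hκ, pairing_swap f hf hker, pairing_mul f hf hker (hcS hs' hvS), ← hκ, tall' _ hs', h1 v hv, one_mul,
        inv_one]
  have hP : IsPGroup 2 ↥((S₀ : Subgroup G).comap f) := S₀.isPGroup'.comap_of_ker_isPGroup f h2
  obtain ⟨R, hR⟩ := hP.exists_le_sylow
  have hle : (R : Subgroup K) ≤ (S₀ : Subgroup G).comap f := by
    rw [← Subgroup.map_le_iff_le_comap]
    refine le_of_eq (S₀.is_maximal' (R.isPGroup'.map f) ?_)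
    rw [← Subgroup.map_comap_eq_self_of_surjective hf (S₀ : Subgroup G)]
    exact Subgroup.map_mono hR
  rw [Subgroup.eq_bot_iff_forall]
  intro z hz
  refine central_trivial hK R (fun x hx y hy => ?_) (hR ?_) (hc hz)
  · have := all _ (hle hx) _ (hle hy)
    rw [hκ, pairing_eq f hf hker (x := x) (y := y) rfl rfl] at this
    exact commutatorElement_eq_one_iff_mul_comm.1 this
  · show f z ∈ (S₀ : Subgroup G)
    rw [hz]; exact one_mem _

end Cfsg.Agent.FGS3.JanRee
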